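import Cfsg.Agent.H101.Cod.SporFi22
import Cfsg.Agent.S1577

/-!
# `Co2` has a degree at least `2 ^ 15` (helper101)
-/

set_option autoImplicit false

namespace Cfsg.Agent.H101.Cod

namespace Co2

open Cfsg Cfsg.Agent.H66.Cod Cfsg.Agent.Characters.Core

universe u

/-- `-4` at the extra point and `4` at the residue `1` -/
def vecW : GolayPt → ℤ := fun p => if p = none then -4 else if p = some 1 then 4 else 0

theorem vecW_mem : vecW ∈ leechSet :=
  Spor.mem_leechSet_of_const_mod_four vecW 0 0 (by decide) (by decide) (by decide)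

/-- the lattice vector -/
def leechW : leechLattice := ⟨vecW, AddSubgroup.subset_closure vecW_mem⟩

theorem exists_hom {F : Type} [Field F] [Fintype F] (hF : Fintype.card F = 4) :
    ∃ f : PSU 6 F 2 →* Spor.Co2, Function.Injective f := by
  have h1 : sqNorm ((Spor.leechU : leechLattice) : GolayPt → ℤ) = 32 := by
    show sqNorm Spor.vecU = 32
    decide
  have h2 : sqNorm ((leechW : leechLattice) : GolayPt → ℤ) = 32 := by
    show sqNorm vecW = 32
    decide
  have h3 : dotInt ((Spor.leechU : leechLattice) : GolayPt → ℤ) ((leechW : leechLattice) : GolayPt → ℤ) = -16 := by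
    show dotInt Spor.vecU vecW = -16
    decide
  obtain ⟨e⟩ := Cfsg.Agent.S1577.result Spor.leechU leechW h1 h2 h3 F hF
  let g : ↥(MulAction.stabilizer ↥Co0 Spor.leechU ⊓ MulAction.stabilizer ↥Co0 leechW) →* Spor.Co2 :=
    { toFun := fun t => ⟨t.1.1, t.1.2, t.2.1⟩
      map_one' := rfl
      map_mul' := fun _ _ => rfl }
  refine ⟨g.comp e.symm.toMonoidHom, ?_⟩
  have hg : Function.Injective g := by
    intro s t hst
    apply Subtype.ext
    apply Subtype.ext
    exact congrArg (fun z : Spor.Co2 => z.1) hst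
  exact hg.comp e.symm.injective

end Co2

open Cfsg Cfsg.Agent.H66.Cod Cfsg.Agent.Characters.Core

universe u

theorem exists_co2 {S : Type u} [Group S] [Finite S] (h : Spor.IsoCo2 S) : ∃ d, NDeg S d ∧ 2 ^ 15 ≤ d := by
  obtain ⟨e⟩ := h
  obtain ⟨F, _, _, hF⟩ : ∃ (F : Type) (_ : Field F) (_ : Fintype F), Fintype.card F = 4 := by
    have h2 : Fact (Nat.Prime 2) := ⟨Nat.prime_two⟩
    let _ : Fintype (GaloisField 2 2) := Fintype.ofFinite _
    refine ⟨GaloisField 2 2, inferInstance, inferInstance, ?_⟩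
    rw [← Nat.card_eq_fintype_card, GaloisField.card 2 2 (by norm_num)]
    norm_num
  obtain ⟨f, hf⟩ := Co2.exists_hom hF
  refine ndeg_of_sub (e.symm.toMonoidHom.comp f) (e.symm.injective.comp hf) (MonoidHom.id _)
    Function.surjective_id (ndeg_psu6 hF) (by norm_num)

theorem nc_co2 {S : Type u} [Group S] [Finite S] (h : Spor.IsoCo2 S) : NC S 39400 :=
  NC.of_le (exists_co2 h) (by rw [NotCT.Orders.co2 h]; norm_num)

end Cfsg.Agent.H101.Cod
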