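import Cfsg.Agent.H101.Cod.Mult
import Cfsg.Agent.H715.Fpr.MathData

/-!
# Codegrees of simple groups: the Mathieu groups (helper101)

`NC S m` for the Mathieu groups `S`: there is no `Cov S L k` with `k ≥ m`.
-/

set_option autoImplicit false

universe u v

namespace Cfsg.Agent.H101.Cod

open Cfsg Subgroup Cfsg.Agent.H715.Fpr.MathData

theorem exists_elt_lt {G : Type u} [Group G] [Finite G] {r C m : ℕ} (hr : r.Prime) (hd : r ∣ Nat.card G)
    (h : ∀ R : Subgroup G, Nat.card R = r → Nat.card (centralizer (R : Set G)) ≤ C) (hC : C < m) :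
    ∃ x : G, (∃ k : ℕ, orderOf x = r ^ k) ∧ Nat.card (centralizer ({x} : Set G)) < m := by
  have : Fact r.Prime := ⟨hr⟩
  obtain ⟨x, hx⟩ := exists_prime_orderOf_dvd_card' r hd
  refine ⟨x, ⟨1, by rw [hx, pow_one]⟩, ?_⟩
  have h1 := h (zpowers x) (by rw [Nat.card_zpowers, hx])
  rw [H729.PairBase.centralizer_zpowers_eq] at h1
  omega

theorem nc_m11 {S : Type u} [Group S] (h : Spor.IsoM11 S) : NC S 12 := by
  obtain ⟨e⟩ := h
  refine NC.congr e.symm ?_
  have hc : Nat.card Spor.M11 = 7920 := card11
  have : Finite Spor.M11 := Nat.finite_of_card_ne_zero (by rw [hc]; norm_num)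
  refine NC.of_primes [11, 5] (by decide +kernel) (by decide) ?_ (by rw [hc]; decide)
  intro p hp
  simp only [List.mem_cons, List.not_mem_nil, or_false] at hp
  rcases hp with rfl | rfl
  · exact exists_elt_lt (by norm_num) (by rw [hc]; norm_num) (fun R hR => (cn11_11 hR).1.le) (by norm_num)
  · exact exists_elt_lt (by norm_num) (by rw [hc]; norm_num) (fun R hR => (cn11_5 hR).1.le) (by norm_num)

theorem nc_m12 {S : Type u} [Group S] (h : Spor.IsoM12 S) : NC S 32 := by
  obtain ⟨e⟩ := h
  refine NC.congr e.symm ?_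
  have hc : Nat.card Spor.M12 = 95040 := card12
  have : Finite Spor.M12 := Nat.finite_of_card_ne_zero (by rw [hc]; norm_num)
  refine NC.of_primes [11, 5] (by decide +kernel) (by decide) ?_ (by rw [hc]; decide)
  intro p hp
  simp only [List.mem_cons, List.not_mem_nil, or_false] at hp
  rcases hp with rfl | rfl
  · exact exists_elt_lt (by norm_num) (by rw [hc]; norm_num) (fun R hR => (cn12_11 hR).1.le) (by norm_num)
  · exact exists_elt_lt (by norm_num) (by rw [hc]; norm_num) (fun R hR => (cn12_5 hR).1.le) (by norm_num)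

theorem nc_m22 {S : Type u} [Group S] (h : Spor.IsoM22 S) : NC S 12 := by
  obtain ⟨e⟩ := h
  refine NC.congr e.symm ?_
  have hc : Nat.card Spor.M22 = 443520 := card22
  have : Finite Spor.M22 := Nat.finite_of_card_ne_zero (by rw [hc]; norm_num)
  refine NC.of_primes [11, 7, 5] (by decide +kernel) (by decide) ?_ (by rw [hc]; decide)
  intro p hp
  simp only [List.mem_cons, List.not_mem_nil, or_false] at hp
  rcases hp with rfl | rfl | rfl
  · exact exists_elt_lt (by norm_num) (by rw [hc]; norm_num) (fun R hR => (cn22_11 hR).1.le) (by norm_num)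
  · exact exists_elt_lt (by norm_num) (by rw [hc]; norm_num) (fun R hR => (cn22_7 hR).1.le) (by norm_num)
  · exact exists_elt_lt (by norm_num) (by rw [hc]; norm_num) (fun R hR => (cn22_5 hR).1.le) (by norm_num)

theorem nc_m23 {S : Type u} [Group S] (h : Spor.IsoM23 S) : NC S 24 := by
  obtain ⟨e⟩ := h
  refine NC.congr e.symm ?_
  have hc : Nat.card Spor.M23 = 10200960 := card23
  have : Finite Spor.M23 := Nat.finite_of_card_ne_zero (by rw [hc]; norm_num)
  refine NC.of_primes [23, 11, 7] (by decide +kernel) (by decide) ?_ (by rw [hc]; decide)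
  intro p hp
  simp only [List.mem_cons, List.not_mem_nil, or_false] at hp
  rcases hp with rfl | rfl | rfl
  · exact exists_elt_lt (by norm_num) (by rw [hc]; norm_num) (fun R hR => (cn23_23 hR).1.le) (by norm_num)
  · exact exists_elt_lt (by norm_num) (by rw [hc]; norm_num) (fun R hR => (cn23_11 hR).1.le) (by norm_num)
  · exact exists_elt_lt (by norm_num) (by rw [hc]; norm_num) (fun R hR => (cn23_7 hR).1.le) (by norm_num)

theorem nc_m24 {S : Type u} [Group S] (h : Spor.IsoM24 S) : NC S 79 := by
  obtain ⟨e⟩ := h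
  refine NC.congr e.symm ?_
  have hc : Nat.card M24 = 244823040 := card24
  have : Finite M24 := Nat.finite_of_card_ne_zero (by rw [hc]; norm_num)
  refine NC.of_primes [23, 11, 7] (by decide +kernel) (by decide) ?_ (by rw [hc]; decide)
  intro p hp
  simp only [List.mem_cons, List.not_mem_nil, or_false] at hp
  rcases hp with rfl | rfl | rfl
  · exact exists_elt_lt (by norm_num) (by rw [hc]; norm_num) (fun R hR => (cn24_23 hR).1.le) (by norm_num)
  · exact exists_elt_lt (by norm_num) (by rw [hc]; norm_num) (fun R hR => (cn24_11 hR).1.le) (by norm_num)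
  · exact exists_elt_lt (by norm_num) (by rw [hc]; norm_num) (fun R hR => (cn24_7 hR).1.le) (by norm_num)

end Cfsg.Agent.H101.Cod
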