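import Cfsg.Agent.H101.Cod.Mult

/-!
# Codegrees of simple groups: subgroups of order `p²` (helper101)

* `mult_le_sq` : `|G|_p = p²`, `|C(x)| ≤ B` for the elements `x` of order `p` of a subgroup of order `p²`, `p² ∤ d`:
  `mult G d ≤ B`
* `mult_le_card` : `χ` of degree `d` are nonzero somewhere on `Q ∖ 1`
* `NC.of_parts` : the criterion with prime powers
-/

set_option autoImplicit false

universe u v

namespace Cfsg.Agent.H101.Cod

open Cfsg Subgroup Cfsg.Agent.H66.Cod Cfsg.Agent.H686.CharKit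

/-- if `|Q| ∤ d` then `m_d` is at most the sum of the numbers `nvd x d`, `x ∈ Q ∖ 1` -/
theorem mult_le_sum_sub {G : Type u} [Group G] [Finite G] (Q : Subgroup G) {d B : ℕ} (hd : ¬ Nat.card Q ∣ d) {c : ℕ}
    (hB : ∀ x ∈ Q, x ≠ 1 → nvd x d * c ≤ B) : mult G d * c ≤ (Nat.card Q - 1) * B := by
  classical
  have := Fintype.ofFinite G
  let l : List G := (Finset.univ.filter fun x : G => x ∈ Q ∧ x ≠ 1).toList
  have hl : ∀ x, x ∈ l ↔ x ∈ Q ∧ x ≠ 1 := fun x => by
    rw [Finset.mem_toList, Finset.mem_filter]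
    exact ⟨fun h => h.2, fun h => ⟨Finset.mem_univ _, h⟩⟩
  have h1 : mult G d ≤ (l.map fun x => nvd x d).sum := by
    refine mult_le_sum l fun χ hχ => ?_
    obtain ⟨x, hx, hx1, h2⟩ := exists_ne_zero Q χ (by rw [hχ]; exact hd)
    exact ⟨x, (hl x).2 ⟨hx, hx1⟩, h2⟩
  have h2 : (l.map fun x => nvd x d).sum * c ≤ l.length * B := by
    have key : ∀ l' : List G, (∀ x ∈ l', nvd x d * c ≤ B) → (l'.map fun x => nvd x d).sum * c ≤ l'.length * B := by
      intro l'
      induction l' with
      | nil => simp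
      | cons y l' ih =>
        intro h
        rw [List.map_cons, List.sum_cons, List.length_cons, add_mul, Nat.succ_mul, add_comm]
        exact Nat.add_le_add (ih fun x hx => h x (List.mem_cons_of_mem _ hx)) (h y List.mem_cons_self)
    exact key l fun x hx => hB x ((hl x).1 hx).1 ((hl x).1 hx).2
  have h3 : l.length = Nat.card Q - 1 := by
    rw [Finset.length_toList]
    have h4 : (Finset.univ.filter fun x : G => x ∈ Q ∧ x ≠ 1) = (Finset.univ.filter fun x : G => x ∈ Q).erase 1 := by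
      ext x
      simp [and_comm]
    have h5 : (Finset.univ.filter fun x : G => x ∈ Q).card = Nat.card Q := by
      rw [Nat.card_eq_fintype_card, Fintype.card_subtype]
    rw [h4, Finset.card_erase_of_mem (Finset.mem_filter.2 ⟨Finset.mem_univ _, Q.one_mem⟩), h5]
  rw [← h3]
  exact (Nat.mul_le_mul_right _ h1).trans h2

theorem gcd_mul_dvd {d i p : ℕ} (hp : p.Prime) (hpd : p ∣ d) (hpi : ¬ p ∣ i) : Nat.gcd d i * p ∣ d := by
  refine Nat.Coprime.mul_dvd_of_dvd_of_dvd ?_ (Nat.gcd_dvd_left d i) hpd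
  rw [Nat.coprime_comm, Nat.Prime.coprime_iff_not_dvd hp]
  exact fun h => hpi (h.trans (Nat.gcd_dvd_right d i))

/-- `p` divides `|C(x)|` to the full power: `χ(x)` is divisible by `p` if `p ∣ d` -/
theorem nvd_mul_le_of_full {G : Type u} [Group G] [Finite G] {p d : ℕ} (hp : p.Prime) (x : G) (hpd : p ∣ d)
    (hi : ¬ p ∣ (centralizer ({x} : Set G)).index) :
    nvd x d * p ^ 2 ≤ Nat.card (centralizer ({x} : Set G)) :=
  nvd_mul_sq_le x hp.pos (gcd_mul_dvd hp hpd hi)

/-- **a subgroup of order `p²`, `|G|_p = p²`** -/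
theorem mult_le_sq {G : Type u} [Group G] [Finite G] {p B d : ℕ} (hp : p.Prime) (Q : Subgroup G)
    (hQ : Nat.card Q = p ^ 2) (h3 : ¬ p ^ 3 ∣ Nat.card G)
    (hB : ∀ x ∈ Q, orderOf x = p → Nat.card (centralizer ({x} : Set G)) ≤ B) (hd : ¬ p ^ 2 ∣ d) : mult G d ≤ B := by
  have hpf : Fact p.Prime := ⟨hp⟩
  by_cases hpd : p ∣ d
  · have hab : ∀ a b : Q, a * b = b * a := (IsPGroup.isMulCommutative_of_card_eq_prime_sq hQ).is_comm.comm
    have hle : ∀ x ∈ Q, x ≠ 1 → Nat.card (centralizer ({x} : Set G)) ≤ B := by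
      intro x hx hx1
      have h1 : orderOf x ∣ p ^ 2 := by
        rw [← hQ, ← Subgroup.orderOf_mk x hx]
        exact orderOf_dvd_natCard _
      obtain ⟨j, hj, hj'⟩ := (Nat.dvd_prime_pow hp).1 h1
      interval_cases j
      · rw [pow_zero, orderOf_eq_one_iff] at hj'
        exact absurd hj' hx1
      · exact hB x hx (by rw [hj', pow_one])
      · have h2 : orderOf (x ^ p) = p := by
          rw [orderOf_pow_of_dvd hp.ne_zero (by rw [hj']; exact dvd_pow_self p (by norm_num)), hj']
          rw [pow_two, Nat.mul_div_cancel _ hp.pos]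
        refine le_trans (Nat.card_le_card_of_injective
          (Subgroup.inclusion (?_ : centralizer ({x} : Set G) ≤ centralizer ({x ^ p} : Set G)))
          (Subgroup.inclusion_injective _)) (hB (x ^ p) (Q.pow_mem hx p) h2)
        intro g hg
        rw [mem_centralizer_singleton_iff] at hg ⊢
        exact ((show Commute g x from hg).pow_right p).eq
    have hidx : ∀ x ∈ Q, ¬ p ∣ (centralizer ({x} : Set G)).index := by
      intro x hx hdv
      have h1 : Q ≤ centralizer ({x} : Set G) := fun y hy =>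
        mem_centralizer_singleton_iff.2 (congrArg Subtype.val (hab ⟨y, hy⟩ ⟨x, hx⟩))
      have h2 := card_dvd_of_le h1
      rw [hQ] at h2
      apply h3
      rw [← card_mul_index (centralizer ({x} : Set G)), pow_succ]
      exact Nat.mul_dvd_mul h2 hdv
    have h1 := mult_le_sum_sub Q (d := d) (B := B) (c := p ^ 2) (by rw [hQ]; exact hd) fun x hx hx1 =>
      (nvd_mul_le_of_full hp x hpd (hidx x hx)).trans (hle x hx hx1)
    rw [hQ] at h1
    have h2 : (p ^ 2 - 1) * B ≤ B * p ^ 2 := by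
      rw [mul_comm B]
      exact Nat.mul_le_mul_right _ (Nat.sub_le _ _)
    exact Nat.le_of_mul_le_mul_right (h1.trans h2) (by have := hp.pos; positivity)
  · obtain ⟨x, hx⟩ := exists_prime_orderOf_dvd_card' (G := Q) p (by rw [hQ]; exact dvd_pow_self p (by norm_num))
    have hx' : orderOf (x : G) = p := by rw [Subgroup.orderOf_coe, hx]
    exact (mult_le' hp hpd (x : G) hx').trans (hB x x.2 hx')

/-- the criterion with pairwise coprime numbers `q` such that `mult S d < m` if `q ∤ d` -/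
theorem NC.of_parts {S : Type u} [Group S] {m : ℕ} (l : List ℕ) (hl : l.Pairwise Nat.Coprime)
    (hx : ∀ q ∈ l, ∀ d, 0 < d → m * d ^ 2 < Nat.card S → ¬ q ∣ d → mult S d < m)
    (hm : ∀ d, 1 < d → d ∣ Nat.card S → m * d ^ 2 < Nat.card S → l.prod ∣ d → mult S d < m) : NC S m := by
  refine Or.inr fun d h1 hdd h2 => ?_
  by_cases h : ∀ p ∈ l, p ∣ d
  · refine hm d h1 hdd h2 ?_
    clear hx hm h2
    induction l with
    | nil => simp
    | cons p l ih =>
      rw [List.prod_cons]
      obtain ⟨h4, h5⟩ := List.pairwise_cons.1 hl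
      exact Nat.Coprime.mul_dvd_of_dvd_of_dvd (Nat.coprime_list_prod_right_iff.2 fun q hq => h4 q hq)
        (h p List.mem_cons_self) (ih h5 fun q hq => h q (List.mem_cons_of_mem _ hq))
  · push Not at h
    obtain ⟨q, hq, hqd⟩ := h
    exact hx q hq d (by omega) h2 hqd

/-- no divisor is left if the product of the list is large -/
theorem NC.of_parts' {S : Type u} [Group S] {m : ℕ} (l : List ℕ) (hl : l.Pairwise Nat.Coprime)
    (hx : ∀ q ∈ l, ∀ d, 0 < d → m * d ^ 2 < Nat.card S → ¬ q ∣ d → mult S d < m)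
    (hm : Nat.card S ≤ m * l.prod ^ 2) : NC S m := by
  refine NC.of_parts l hl hx fun d h1 _ h2 h3 => ?_
  exfalso
  have h4 := Nat.le_of_dvd (by omega) h3
  have h5 : m * l.prod ^ 2 ≤ m * d ^ 2 := Nat.mul_le_mul_left _ (Nat.pow_le_pow_left h4 2)
  omega

end Cfsg.Agent.H101.Cod
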