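import Cfsg.Agent.H101.Cod.Sq
import Cfsg.Agent.Classification.QDW.GlauberTwo

/-!
# A bound for multiplicities from two commuting elements (helper101)
-/

set_option autoImplicit false

namespace Cfsg.Agent.H101.Cod

open Cfsg Cfsg.Agent.H66.Cod Cfsg.Agent.Characters.Core Cfsg.Agent.Characters.GaloisBasic

universe u

/-- `χ(x) ≡ χ(t x) (mod 2)` for `t ^ 2 = 1` commuting with `x` -/
theorem isIntegral_sub_div_two {G : Type u} [Group G] [Finite G] {χ : G → ℂ} (hχ : IsCharacter G χ) {x t : G}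
    (ht : t * t = 1) (hx : x * t = t * x) : IsIntegral ℤ ((χ x - χ (t * x)) / 2) := by
  obtain ⟨χ₀, χ₁, h0, h1, h2, h3⟩ := Cfsg.Agent.Classification.QDW.GlauberTwo.exists_eigen_split ht hχ
  have hm : x ∈ Subgroup.centralizer ({t} : Set G) := Subgroup.mem_centralizer_singleton_iff.2 hx
  have h4 := h2 ⟨x, hm⟩
  have h5 := h3 ⟨x, hm⟩
  have h6 : (χ x - χ (t * x)) / 2 = χ₁ ⟨x, hm⟩ := by
    change χ x = _ at h4
    change χ (t * x) = _ at h5
    rw [h4, h5]
    ring
  rw [h6]
  exact isIntegral_apply h1 _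

/-- **`m_d ≤ |C(t x)| + |C(x)| / 4`** if `p ∤ d`, `x` is a `p`-element and `t` an involution commuting with `x` -/
theorem mult_le_two {G : Type u} [Group G] [Finite G] {p d : ℕ} (hp : p.Prime) (hd : ¬ p ∣ d) {x t : G}
    (hx : ∃ k : ℕ, orderOf x = p ^ k) (ht : t * t = 1) (hxt : x * t = t * x) :
    mult G d * 4 ≤ 4 * Nat.card (Subgroup.centralizer ({t * x} : Set G)) +
      Nat.card (Subgroup.centralizer ({x} : Set G)) := by
  classical
  have := finite_irr (G := G)
  have := Fintype.ofFinite (IrrCharacter G)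
  rw [mult_eq, ← Finset.card_filter_add_card_filter_not
    (s := Finset.univ.filter fun χ : IrrCharacter G => charDegree (χ : G → ℂ) = d)
    (p := fun χ => (χ : G → ℂ) (t * x) ≠ 0)]
  have h1 := card_mul_sq_le (t * x) (c := 1) one_pos
    ((Finset.univ.filter fun χ : IrrCharacter G => charDegree (χ : G → ℂ) = d).filter
      fun χ => (χ : G → ℂ) (t * x) ≠ 0) fun χ hχ => ⟨(Finset.mem_filter.1 hχ).2, by
        rw [Nat.cast_one, div_one]
        exact isIntegral_apply (isIrr_isCharacter χ.2) _⟩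
  have h2 := card_mul_sq_le x (c := 2) two_pos
    ((Finset.univ.filter fun χ : IrrCharacter G => charDegree (χ : G → ℂ) = d).filter
      fun χ => ¬ (χ : G → ℂ) (t * x) ≠ 0) fun χ hχ => by
        obtain ⟨h3, h4⟩ := Finset.mem_filter.1 hχ
        have h5 := (Finset.mem_filter.1 h3).2
        rw [not_not] at h4
        refine ⟨ne_zero_of_not_dvd hp χ (by rwa [h5]) hx, ?_⟩
        have h6 := isIntegral_sub_div_two (isIrr_isCharacter χ.2) ht hxt
        rwa [h4, sub_zero] at h6
  omega

/-- `nvd` is constant on classes -/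
theorem nvd_conj {G : Type u} [Group G] {x y : G} (h : IsConj x y) (d : ℕ) : nvd x d = nvd y d := by
  obtain ⟨c, hc⟩ := isConj_iff.1 h
  refine Nat.card_congr (Equiv.subtypeEquivRight fun χ => ?_)
  have h1 : (χ : G → ℂ) y = (χ : G → ℂ) x := by
    rw [← hc]
    exact isIrr_isClassFunction χ.2 x c
  rw [h1]

end Cfsg.Agent.H101.Cod
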