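import Cfsg.Agent.H101.Cod.SuzTab
import Cfsg.Agent.H101.Cod.Sq
import Cfsg.Agent.H101.Cod.Two
import Cfsg.Agent.CTwoTab.Suz
import Cfsg.Agent.SuzThree.CentCard
import Cfsg.Agent.H812.SuzLoc

/-!
# Codegrees of simple groups: the Suzuki group (helper101)

`nc_suz` : every degree `1 < d` with `144 d² < |Suz|` has multiplicity less than 144.
-/

set_option autoImplicit false
set_option maxRecDepth 100000
set_option exponentiation.threshold 4000

universe u v

namespace Cfsg.Agent.H101.Cod.SporSuz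

open Subgroup Cfsg
open Cfsg.Spor (Suz)
open Cfsg.Agent.SporadicRecognition.SuzOrder (card_Suz)
open Cfsg.Agent.H265.SuzCent (card_conj dvd_thirteen dvd_eleven not_5_7)
open Cfsg.Agent.CpAutSuz.Local (exists_orderOf)
open Cfsg.Agent.CpAutSuz.Five (Y0 f1 f2)
open Cfsg.Agent.H101.Cod Cfsg.Agent.H101.Cod.SuzTab Cfsg.Agent.H66.Cod Cfsg.Agent.H686.CharKit
  Cfsg.Agent.Characters.Core Cfsg.Agent.Characters.GaloisBasic
open Cfsg.Agent.SporRec.SuzCl (Fx card_Fx_conj)

theorem finS : Finite Suz := Nat.finite_of_card_ne_zero (by rw [card_Suz]; norm_num)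

theorem odd_of {p : ℕ} (hp : p = 11 ∨ p = 13) {x : Suz} (hx : orderOf x = p) :
    ¬ 2 ∣ Nat.card (centralizer ({x} : Set Suz)) := by
  have hfin := finS
  intro h
  obtain ⟨t, ht, hc⟩ := exists_orderOf Nat.prime_two h
  have h1 : p ∣ Nat.card (centralizer ({t} : Set Suz)) := by
    have := orderOf_dvd_natCard (⟨x, mem_centralizer_singleton_iff.2 hc.symm⟩ : centralizer ({t} : Set Suz))
    rwa [Subgroup.orderOf_mk, hx] at this
  have ht2 : t * t = 1 := by rw [← pow_two, ← ht]; exact pow_orderOf_eq_one t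
  have ht1 : t ≠ 1 := by
    rintro rfl
    rw [orderOf_one] at ht
    omega
  rcases CTwoTab.Suz.classes ht2 ht1 with h2 | h2
  · obtain ⟨c, rfl⟩ := isConj_iff.1 h2
    have h3 : Nat.card (centralizer ({SuzThree.CentA.z0} : Set Suz)) = 3317760 := SuzThree.CentCard.card_C1
    rw [card_conj, h3] at h1
    rcases hp with rfl | rfl <;> norm_num at h1
  · obtain ⟨c, rfl⟩ := isConj_iff.1 h2
    have h3 : Nat.card (centralizer ({KFacts.SuzLFour.e0} : Set Suz)) = 161280 := KFacts.SuzTwoB.card_CE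
    rw [card_conj, h3] at h1
    rcases hp with rfl | rfl <;> norm_num at h1

theorem exists_big {p : ℕ} (hp : p = 11 ∨ p = 13) :
    ∃ x : Suz, orderOf x = p ∧ Nat.card (centralizer ({x} : Set Suz)) ≤ p := by
  have hfin := finS
  have hpp : p.Prime := by rcases hp with rfl | rfl <;> norm_num
  have : Fact p.Prime := ⟨hpp⟩
  obtain ⟨x, hx⟩ := exists_prime_orderOf_dvd_card' (G := Suz) p (by
    rw [card_Suz]
    rcases hp with rfl | rfl <;> norm_num)
  refine ⟨x, hx, ?_⟩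
  have h1 : Nat.card (centralizer ({x} : Set Suz)) ∣ 2 ^ 13 * p := by
    rcases hp with rfl | rfl
    · exact dvd_eleven hx
    · exact dvd_thirteen hx
  have h2 := (Nat.Prime.coprime_iff_not_dvd Nat.prime_two).2 (odd_of hp hx)
  have h3 : Nat.card (centralizer ({x} : Set Suz)) ∣ p :=
    (Nat.Coprime.pow_right 13 h2.symm).dvd_of_dvd_mul_left h1
  exact Nat.le_of_dvd hpp.pos h3

open Cfsg.Agent.H812.SuzLoc in
theorem card_x7 : Nat.card (centralizer ({x7} : Set Suz)) ≤ 84 := by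
  rcases card_cases x7_mem (Or.inl rfl) order_x7 with h | h | h
  · omega
  · omega
  · exfalso
    obtain ⟨v, hv, hc⟩ := exists_orderOf (s := x7) (l := 5) (by norm_num) (by rw [h]; norm_num)
    exact not_5_7 hv order_x7 hc.symm

open Cfsg.Agent.H812.SuzLoc in
theorem card_x5 : Nat.card (centralizer ({x5} : Set Suz)) ≤ 300 := by
  rcases card_cases x5_mem (Or.inr rfl) order_x5 with h | h | h <;> omega

open Cfsg.Agent.H812.SuzLoc Cfsg.Agent.KFacts.SuzLFour Cfsg.Agent.KFacts.SuzTwoB in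
theorem card_ex5 : Nat.card (centralizer ({e0 * x5} : Set Suz)) ≤ 20 := by
  have hfin := finS
  have he : e0 * x5 = x5 * e0 := e0_comm x5 x5_mem
  have he' : Commute e0 x5 := he
  -- `x5` and `e0` are powers of the product
  have h5 : x5 ^ 5 = 1 := x5_pow
  have h2 : e0 ^ 2 = 1 := by rw [pow_two]; exact e0_sq
  have hp6 : (e0 * x5) ^ 6 = x5 := by
    rw [he'.mul_pow, show (6 : ℕ) = 2 * 3 from rfl, pow_mul, h2, one_pow, one_mul,
      show (2 * 3 : ℕ) = 5 + 1 from rfl, pow_succ, h5, one_mul]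
  have hp5 : (e0 * x5) ^ 5 = e0 := by
    rw [he'.mul_pow, h5, mul_one, show (5 : ℕ) = 2 * 2 + 1 from rfl, pow_succ, pow_mul, h2, one_pow, one_mul]
  have hsub : ∀ c ∈ centralizer ({e0 * x5} : Set Suz), ∃ v ∈ V, ∃ i : ℤ, c = v * x5 ^ i := by
    intro c hc
    have hc' : Commute c (e0 * x5) := mem_centralizer_singleton_iff.1 hc
    have h3 := hc'.pow_right 6
    rw [hp6] at h3
    have h4 := hc'.pow_right 5
    rw [hp5] at h4
    exact cent_CE x5_mem (Or.inr order_x5) h4.eq h3.eq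
  have hle : (centralizer ({e0 * x5} : Set Suz) : Set Suz) ⊆
      (fun p : ↥V × Fin 5 => (p.1 : Suz) * x5 ^ (p.2 : ℕ)) '' Set.univ := by
    intro c hc
    obtain ⟨v, hv, i, rfl⟩ := hsub c hc
    have h6 : (0 : ℤ) ≤ i % 5 := Int.emod_nonneg _ (by norm_num)
    have h7 : i % 5 < 5 := Int.emod_lt_of_pos _ (by norm_num)
    obtain ⟨n, hn⟩ := Int.eq_ofNat_of_zero_le h6
    have hn5 : n < 5 := by omega
    refine ⟨(⟨v, hv⟩, ⟨n, hn5⟩), Set.mem_univ _, ?_⟩
    show v * x5 ^ n = v * x5 ^ i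
    congr 1
    have h8 : x5 ^ i = x5 ^ (i % 5) := by
      conv_lhs => rw [← Int.emod_add_mul_ediv i 5, zpow_add, zpow_mul]
      have h9 : x5 ^ (5 : ℤ) = 1 := by
        rw [show (5 : ℤ) = ((5 : ℕ) : ℤ) from rfl, zpow_natCast]; exact h5
      rw [h9, one_zpow, mul_one]
    rw [h8, hn]
    exact (zpow_natCast x5 n).symm
  have h8 := Set.ncard_le_ncard hle (Set.toFinite _)
  have h9 := Set.ncard_image_le (s := (Set.univ : Set (↥V × Fin 5))) (f := fun p => (p.1 : Suz) * x5 ^ (p.2 : ℕ))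
    (Set.toFinite _)
  rw [Set.ncard_univ, Nat.card_prod, card_V, Nat.card_fin] at h9
  rw [← Nat.card_coe_set_eq] at h8
  exact h8.trans (h9.trans (by norm_num))

/-- `5 ∤ d` -/
theorem mult_five {d : ℕ} (hd : ¬ 5 ∣ d) : mult Suz d ≤ 95 := by
  have hfin := finS
  have h := mult_le_two (G := Suz) (p := 5) (by norm_num) hd (x := H812.SuzLoc.x5) (t := KFacts.SuzLFour.e0)
    ⟨1, by rw [H812.SuzLoc.order_x5, pow_one]⟩ KFacts.SuzLFour.e0_sq
    (KFacts.SuzLFour.e0_comm _ H812.SuzLoc.x5_mem).symm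
  have h1 := card_x5
  have h2 := card_ex5
  omega

open Cfsg.Agent.Lib.PermNet Cfsg.Agent.Lib.PermNetOrbit Cfsg.Agent.SporadicRecognition.SuzPhi
  Cfsg.Agent.SporadicRecognition.SuzBound Cfsg.Agent.SporadicRecognition.SuzOrder
  Cfsg.Agent.SuzThree.Nets Cfsg.Agent.SuzThree.Basic
  Cfsg.Agent.CpAutSuz.Fix Cfsg.Agent.CpAutSuz.Gen in
theorem card_Fx_x5 : (Fx H812.SuzLoc.x5).card = 2 := card_Fx_rep (Rep.el H812.SuzLoc.w5) (by decide +kernel)

theorem card_f1 : Nat.card (centralizer ({f1} : Set Suz)) ≤ 300 := by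
  have hfin := finS
  have : Fact (Nat.Prime 5) := ⟨by norm_num⟩
  have hX : IsPGroup 5 ↥(zpowers H812.SuzLoc.x5) := IsPGroup.of_card (n := 1) (by
    rw [Nat.card_zpowers, H812.SuzLoc.order_x5, pow_one])
  obtain ⟨c, hc⟩ := Cfsg.Agent.CpAutSuz.Five.exists_conj hX
  have h1 : c * H812.SuzLoc.x5 * c⁻¹ ∈ Y0 := hc ⟨_, mem_zpowers _, rfl⟩
  have h2 : c * H812.SuzLoc.x5 * c⁻¹ ≠ 1 := fun h => H812.SuzLoc.x5_ne (by
    have h3 : H812.SuzLoc.x5 = c⁻¹ * (c * H812.SuzLoc.x5 * c⁻¹) * c := by group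
    rw [h3, h]; group)
  have h3 : (Fx (c * H812.SuzLoc.x5 * c⁻¹)).card = 2 := by rw [card_Fx_conj]; exact card_Fx_x5
  rcases dich h1 h2 with h4 | h4
  · obtain ⟨g, hg⟩ := isConj_iff.1 h4
    rw [← card_conj g f1, hg, card_conj]
    exact card_x5
  · exfalso
    have h5 := Fx_of_conj h4
    rw [card_Fx_u, h3] at h5
    omega

theorem not_dvd_index {x : Suz} (hx : 5 ^ 2 ∣ Nat.card (centralizer ({x} : Set Suz))) :
    ¬ 5 ∣ (centralizer ({x} : Set Suz)).index := by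
  intro h
  have h1 := (centralizer ({x} : Set Suz)).card_mul_index
  rw [card_Suz] at h1
  have h2 : 5 ^ 2 * 5 ∣ 448345497600 := by
    rw [← h1]; exact mul_dvd_mul hx h
  norm_num at h2

theorem dvd_cent {x : Suz} (hx : x ∈ Y0) : 5 ^ 2 ∣ Nat.card (centralizer ({x} : Set Suz)) := by
  rw [← Cfsg.Agent.CpAutSuz.Five.card_Y0]
  refine card_dvd_of_le fun y hy => mem_centralizer_singleton_iff.2 ?_
  exact Cfsg.Agent.CpAutSuz.Five.Y0_comm y hy x hx

/-- `5 ∣ d`, `25 ∤ d` -/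
theorem mult_five_one {d : ℕ} (hd : 5 ∣ d) (hd' : ¬ 25 ∣ d) : mult Suz d ≤ 140 := by
  have hfin := finS
  have hu : u ∈ Y0 := Y0.mul_mem (Y0.pow_mem Cfsg.Agent.CpAutSuz.Five.f1_mem _)
    (Y0.pow_mem Cfsg.Agent.CpAutSuz.Five.f2_mem _)
  have h := mult_le_sum [f1, u] (d := d) (fun χ hχ => by
    obtain ⟨x, hx, h1, h2⟩ := exists_ne_zero Y0 χ (by
      rw [Cfsg.Agent.CpAutSuz.Five.card_Y0, hχ]; exact hd')
    rcases dich hx h1 with h3 | h3
    · refine ⟨f1, by simp, ?_⟩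
      obtain ⟨c, hc⟩ := isConj_iff.1 h3
      rw [← hc, isIrr_isClassFunction χ.2 f1 c] at h2
      exact h2
    · refine ⟨u, by simp, ?_⟩
      obtain ⟨c, hc⟩ := isConj_iff.1 h3
      rw [← hc, isIrr_isClassFunction χ.2 u c] at h2
      exact h2)
  have h1 := nvd_mul_le_of_full (p := 5) (by norm_num) f1 hd
    (not_dvd_index (dvd_cent Cfsg.Agent.CpAutSuz.Five.f1_mem))
  have h2 := nvd_mul_le_of_full (p := 5) (by norm_num) u hd (not_dvd_index (dvd_cent hu))
  have h3 := card_f1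
  have h4 := card_cent_u
  simp only [List.map_cons, List.map_nil, List.sum_cons, List.sum_nil] at h
  omega

open Cfsg.Agent.Lib.PermNet Cfsg.Agent.Lib.PermNetOrbit Cfsg.Agent.SporadicRecognition.SuzPhi
  Cfsg.Agent.SporadicRecognition.SuzBound Cfsg.Agent.SporadicRecognition.SuzOrder
  Cfsg.Agent.SuzThree.Nets Cfsg.Agent.SuzThree.Basic Cfsg.Agent.SuzThree.Elts
  Cfsg.Agent.SuzThree.CentA
  Cfsg.Agent.SuzThree.QZero Cfsg.Agent.KFacts.SuzCent Cfsg.Agent.KFacts.SuzLFour Cfsg.Agent.KFacts.SuzTwoB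
  Cfsg.Agent.PreUniq.Spor.SuzP Cfsg.Agent.CpAutSuz.ThreeC in
theorem exists_three : ∃ x : Suz, orderOf x = 3 ∧ Nat.card (centralizer ({x} : Set Suz)) = 3240 := by
  have hfin := finS
  have h1 : ∃ x ∈ E, x ≠ 1 := by
    by_contra h
    push Not at h
    have h2 : E = ⊥ := (Subgroup.eq_bot_iff_forall E).2 h
    have h3 := card_E
    rw [h2, Subgroup.card_bot] at h3
    omega
  obtain ⟨x, hx, hx1⟩ := h1
  exact ⟨x, orderOf_eq_prime (cube_E hx) hx1, card_centralizer hx hx1⟩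

/-- `d = 25025, 50050` -/
theorem mult_two {d : ℕ} (hd : d = 25025 ∨ d = 50050) : mult Suz d ≤ 129 := by
  have hfin := finS
  obtain ⟨x, hx, hc⟩ := exists_three
  have hi : (centralizer ({x} : Set Suz)).index = 138378240 := by
    have h1 := (centralizer ({x} : Set Suz)).card_mul_index
    rw [card_Suz, hc] at h1
    omega
  have h1 := nvd_mul_sq_le x (c := 5) (d := d) (by norm_num) (by
    rw [hi]
    rcases hd with rfl | rfl <;> norm_num)
  have h2 := mult_le_sum [x] (d := d) (fun χ hχ => ⟨x, by simp, ne_zero_of_not_dvd Nat.prime_three χ (by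
    rw [hχ]
    rcases hd with rfl | rfl <;> norm_num) ⟨1, by rw [hx, pow_one]⟩⟩)
  simp only [List.map_cons, List.map_nil, List.sum_cons, List.sum_nil] at h2
  omega

theorem nc_suz' : NC Suz 144 := by
  have hfin := finS
  refine Or.inr fun d h1 hdd h2 => ?_
  rw [card_Suz] at hdd h2
  by_cases h13 : 13 ∣ d
  swap
  · obtain ⟨x, hx, hc⟩ := exists_big (Or.inr rfl)
    have := mult_le' (by norm_num) h13 x hx
    omega
  by_cases h11 : 11 ∣ d
  swap
  · obtain ⟨x, hx, hc⟩ := exists_big (Or.inl rfl)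
    have := mult_le' (by norm_num) h11 x hx
    omega
  by_cases h7 : 7 ∣ d
  swap
  · have := mult_le' (by norm_num) h7 _ H812.SuzLoc.order_x7
    have := card_x7
    omega
  by_cases h5 : 5 ∣ d
  swap
  · have := mult_five h5
    omega
  by_cases h25 : 25 ∣ d
  swap
  · have := mult_five_one h5 h25
    omega
  have h3 : 25025 ∣ d := by
    have a1 : 13 * 11 ∣ d := Nat.Coprime.mul_dvd_of_dvd_of_dvd (by norm_num) h13 h11
    have a2 : 13 * 11 * 7 ∣ d := Nat.Coprime.mul_dvd_of_dvd_of_dvd (by norm_num) a1 h7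
    exact Nat.Coprime.mul_dvd_of_dvd_of_dvd (by norm_num : Nat.Coprime (13 * 11 * 7) 25) a2 h25
  obtain ⟨k, rfl⟩ := h3
  have h4 : k < 3 := by
    by_contra h
    push Not at h
    have : 144 * (25025 * 3) ^ 2 ≤ 144 * (25025 * k) ^ 2 :=
      Nat.mul_le_mul_left _ (Nat.pow_le_pow_left (Nat.mul_le_mul_left _ h) 2)
    omega
  have h6 := mult_two (d := 25025 * k) (by
    interval_cases k
    · omega
    · left; rfl
    · right; rfl)
  omega

end Cfsg.Agent.H101.Cod.SporSuz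

namespace Cfsg.Agent.H101.Cod

open Cfsg

theorem nc_suz {S : Type u} [Group S] (h : Spor.IsoSuz S) : NC S 144 := by
  obtain ⟨e⟩ := h
  exact NC.congr e.symm SporSuz.nc_suz'

end Cfsg.Agent.H101.Cod
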