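import Cfsg.Agent.CpAutSuz.Local
import Cfsg.Agent.Classification.BSWStruct
import Cfsg.Agent.H265.SuzCent

/-!
# The Suzuki group: the centralizers of the elements of order 5 (helper101)

`Y0 = ⟨f1, f2⟩` is a Sylow 5-subgroup, the elements `≠ 1` of `Y0` are conjugate to `f1` (2 fixed points on 1782
points) or to `u = f1 f2²` (12 fixed points).

* `card_cent_u_le` : `|C(u)| ≤ 3600` (counting the images of four fixed points of `u`);
* `dich` : the fusion in `Y0`;
* `card_cent_u` : `|C(u)| < 3300` (congruence modulo 5 for the number of conjugates of `u`).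
-/

set_option autoImplicit false
set_option maxRecDepth 100000
set_option exponentiation.threshold 4000

namespace Cfsg.Agent.H101.Cod.SuzTab

open Subgroup Cfsg
open Cfsg.Spor (Suz)
open Cfsg.Agent.Lib.PermNet Cfsg.Agent.Lib.PermNetOrbit Cfsg.Agent.SporadicRecognition.SuzPhi
  Cfsg.Agent.SporadicRecognition.SuzBound Cfsg.Agent.SporadicRecognition.SuzOrder
  Cfsg.Agent.SuzThree.Nets Cfsg.Agent.SuzThree.Basic
open Cfsg.Agent.SporRec.SuzCl (Fx card_Fx_conj)
open Cfsg.Agent.CpAutSuz.Fix Cfsg.Agent.CpAutSuz.Gen Cfsg.Agent.CpAutSuz.Five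

/-! ### Words for points -/

def k0 : List Suz.Gen := []
def k1 : List Suz.Gen := [.g]
def k2 : List Suz.Gen := [.b, .g]
def k3 : List Suz.Gen := [.a, .b, .g]
def k215 : List Suz.Gen := [.c, .b, .f, .g, .c, .d, .b, .c, .a, .b, .g]
def k237 : List Suz.Gen := [.c, .b, .f, .g, .e, .d, .b, .c, .a, .b, .g]
def k238 : List Suz.Gen := [.d, .c, .b, .f, .g, .d, .b, .c, .a, .b, .g]
def k368 : List Suz.Gen := [.b, .c, .d, .e, .c, .d, .c, .d, .b, .c, .a, .b, .g]
def k1030 : List Suz.Gen := [.e, .d, .c, .d, .c, .b, .f, .e, .d, .c, .d, .b, .c, .a, .b, .g]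
def k1295 : List Suz.Gen := [.c, .b, .a, .b, .f, .e, .d, .c, .d, .e, .a, .b, .c, .d, .c, .b, .g]
def k1448 : List Suz.Gen := [.d, .c, .b, .g, .f, .b, .c, .d, .c, .b, .g]
def k1535 : List Suz.Gen := [.b, .g, .c, .b, .f, .a, .b, .c, .d, .c, .b, .g]
def k1598 : List Suz.Gen := [.b, .g, .c, .b, .f, .g, .b, .c, .d, .c, .b, .g]
def k1626 : List Suz.Gen := [.d, .b, .g, .c, .b, .f, .g, .b, .c, .d, .c, .b, .g]
def k1662 : List Suz.Gen := [.b, .g, .c, .b, .f, .g, .e, .b, .c, .d, .c, .b, .g]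
def k1779 : List Suz.Gen := [.b, .c, .a, .b, .a, .b, .g, .f, .d, .c, .d, .e, .b, .c, .d, .c, .b, .g]
def k1781 : List Suz.Gen := [.b, .g, .c, .b, .g, .f, .d, .c, .d, .e, .d, .b, .c, .d, .b, .c, .a, .b, .g]

/-- a point alone in its cell is fixed -/
theorem iso {x : Suz} {b : ℕ} {ws : List (List Suz.Gen)} {l : List ℕ} (hl : ws.length = l.length)
    (hp : chkW (ws.zip l) = true) (hc : Nat.beq (cell b ws) (msk [b]) = true) (hx : ∀ p ∈ l, φ x p = p) :
    φ x b = b := by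
  have h3 := cell_inv (b := b) (fix_ws hl hp hx) b
  rw [Nat.eq_of_beq_eq_true hc] at h3
  have h4 : (msk [b]).testBit b = true := by
    show (2 ^ b ||| 0 : ℕ).testBit b = true
    rw [Nat.testBit_or, Nat.testBit_two_pow_self, Bool.true_or]
  rw [h4] at h3
  simpa using mem_of_msk h3

/-- the element `f1 f2²` -/
noncomputable def u : Suz := f1 ^ 1 * f2 ^ 2

/-- the word of `u` -/
noncomputable def wu : List Net := wpow (wd w1) 1 ++ wpow (wd w2) 2

theorem rep_u : Rep u wu := (Rep.pow (Rep.el w1) 1).mul (Rep.pow (Rep.el w2) 2)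

theorem p215 : chkW (([k1, k3, k1779, k1598, k1626, k1781, k1662, k0] : List (List Suz.Gen)).zip [1, 3, 1779, 1598, 1626, 1781, 1662, 0]) = true := by decide +kernel
theorem c215 : Nat.beq (cell 215 [k1, k3, k1779, k1598, k1626, k1781, k1662, k0]) (msk [215]) = true := by decide +kernel
theorem p237 : chkW (([k2, k3, k1598, k1662, k1779, k1626, k1781, k0] : List (List Suz.Gen)).zip [2, 3, 1598, 1662, 1779, 1626, 1781, 0]) = true := by decide +kernel
theorem c237 : Nat.beq (cell 237 [k2, k3, k1598, k1662, k1779, k1626, k1781, k0]) (msk [237]) = true := by decide +kernel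
theorem p238 : chkW (([k2, k3, k1598, k1626, k1779, k1781, k1662, k0] : List (List Suz.Gen)).zip [2, 3, 1598, 1626, 1779, 1781, 1662, 0]) = true := by decide +kernel
theorem c238 : Nat.beq (cell 238 [k2, k3, k1598, k1626, k1779, k1781, k1662, k0]) (msk [238]) = true := by decide +kernel
theorem p1295 : chkW (([k1, k2, k1598, k1781, k1779, k1626, k1662, k0] : List (List Suz.Gen)).zip [1, 2, 1598, 1781, 1779, 1626, 1662, 0]) = true := by decide +kernel
theorem c1295 : Nat.beq (cell 1295 [k1, k2, k1598, k1781, k1779, k1626, k1662, k0]) (msk [1295]) = true := by decide +kernel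
theorem p1448 : chkW (([k0, k3, k1598, k1626, k1779, k1781, k1662, k1] : List (List Suz.Gen)).zip [0, 3, 1598, 1626, 1779, 1781, 1662, 1]) = true := by decide +kernel
theorem c1448 : Nat.beq (cell 1448 [k0, k3, k1598, k1626, k1779, k1781, k1662, k1]) (msk [1448]) = true := by decide +kernel
theorem p1535 : chkW (([k0, k1, k1779, k1598, k1626, k1781, k1662, k2] : List (List Suz.Gen)).zip [0, 1, 1779, 1598, 1626, 1781, 1662, 2]) = true := by decide +kernel
theorem c1535 : Nat.beq (cell 1535 [k0, k1, k1779, k1598, k1626, k1781, k1662, k2]) (msk [1535]) = true := by decide +kernel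
theorem p1030 : chkW (([k1598, k215, k237, k1295, k1, k1448] : List (List Suz.Gen)).zip [1598, 215, 237, 1295, 1, 1448]) = true := by decide +kernel
theorem c1030 : Nat.beq (cell 1030 [k1598, k215, k237, k1295, k1, k1448]) (msk [1030]) = true := by decide +kernel
theorem p368 : chkW (([k1662, k237, k215, k1295, k2, k1448] : List (List Suz.Gen)).zip [1662, 237, 215, 1295, 2, 1448]) = true := by decide +kernel
theorem c368 : Nat.beq (cell 368 [k1662, k237, k215, k1295, k2, k1448]) (msk [368]) = true := by decide +kernel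
theorem p14 : chkW (([k1662, k237, k1535, k1030, k1598] : List (List Suz.Gen)).zip [1662, 237, 1535, 1030, 1598]) = true := by decide +kernel
theorem c14 : Nat.beq (cell 14 [k1662, k237, k1535, k1030, k1598]) (msk [14]) = true := by decide +kernel
theorem p98 : chkW (([k1598, k368, k1295, k1626, k1662, k0] : List (List Suz.Gen)).zip [1598, 368, 1295, 1626, 1662, 0]) = true := by decide +kernel
theorem c98 : Nat.beq (cell 98 [k1598, k368, k1295, k1626, k1662, k0]) (msk [98]) = true := by decide +kernel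
theorem p1575 : chkW (([k0, k1, k2, k368, k238] : List (List Suz.Gen)).zip [0, 1, 2, 368, 238]) = true := by decide +kernel
theorem c1575 : Nat.beq (cell 1575 [k0, k1, k2, k368, k238]) (msk [1575]) = true := by decide +kernel

theorem cyc (h : φ u 1598 = 1779 ∧ φ u 1779 = 1626 ∧ φ u 1626 = 1781 ∧ φ u 1781 = 1662) {c : Suz} (hc : c * u = u * c)
    (h1598 : φ c 1598 = 1598) : φ c 1779 = 1779 ∧ φ c 1626 = 1626 ∧ φ c 1781 = 1781 ∧ φ c 1662 = 1662 := by
  have key : ∀ {p q : ℕ}, φ u p = q → φ c p = p → φ c q = q := by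
    intro p q hpq hp
    rw [← hpq, ← φ_mul_apply, hc, φ_mul_apply, hp]
  have h1 := key h.1 h1598
  have h2 := key h.2.1 h1
  have h3 := key h.2.2.1 h2
  exact ⟨h1, h2, h3, key h.2.2.2 h3⟩

theorem u_cyc : φ u 1598 = 1779 ∧ φ u 1779 = 1626 ∧ φ u 1626 = 1781 ∧ φ u 1781 = 1662 :=
  ⟨rep_u.pt (by decide +kernel), rep_u.pt (by decide +kernel), rep_u.pt (by decide +kernel),
    rep_u.pt (by decide +kernel)⟩

/-- an element of `C(u)` fixing 0, 1, 2, 3, 1598 is trivial -/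
theorem eq_one_u {c : Suz} (hc : c * u = u * c) (h0 : φ c 0 = 0) (h1 : φ c 1 = 1) (h2 : φ c 2 = 2) (h3 : φ c 3 = 3)
    (h1598 : φ c 1598 = 1598) : c = 1 := by
  obtain ⟨h1779, h1626, h1781, h1662⟩ := cyc u_cyc hc h1598
  have h215 : φ c 215 = 215 := iso rfl p215 c215 (by
    simp only [List.mem_cons, List.not_mem_nil, or_false, forall_eq_or_imp, forall_eq]
    exact ⟨h1, h3, h1779, h1598, h1626, h1781, h1662, h0⟩)
  have h237 : φ c 237 = 237 := iso rfl p237 c237 (by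
    simp only [List.mem_cons, List.not_mem_nil, or_false, forall_eq_or_imp, forall_eq]
    exact ⟨h2, h3, h1598, h1662, h1779, h1626, h1781, h0⟩)
  have h238 : φ c 238 = 238 := iso rfl p238 c238 (by
    simp only [List.mem_cons, List.not_mem_nil, or_false, forall_eq_or_imp, forall_eq]
    exact ⟨h2, h3, h1598, h1626, h1779, h1781, h1662, h0⟩)
  have h1295 : φ c 1295 = 1295 := iso rfl p1295 c1295 (by
    simp only [List.mem_cons, List.not_mem_nil, or_false, forall_eq_or_imp, forall_eq]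
    exact ⟨h1, h2, h1598, h1781, h1779, h1626, h1662, h0⟩)
  have h1448 : φ c 1448 = 1448 := iso rfl p1448 c1448 (by
    simp only [List.mem_cons, List.not_mem_nil, or_false, forall_eq_or_imp, forall_eq]
    exact ⟨h0, h3, h1598, h1626, h1779, h1781, h1662, h1⟩)
  have h1535 : φ c 1535 = 1535 := iso rfl p1535 c1535 (by
    simp only [List.mem_cons, List.not_mem_nil, or_false, forall_eq_or_imp, forall_eq]
    exact ⟨h0, h1, h1779, h1598, h1626, h1781, h1662, h2⟩)
  have h1030 : φ c 1030 = 1030 := iso rfl p1030 c1030 (by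
    simp only [List.mem_cons, List.not_mem_nil, or_false, forall_eq_or_imp, forall_eq]
    exact ⟨h1598, h215, h237, h1295, h1, h1448⟩)
  have h368 : φ c 368 = 368 := iso rfl p368 c368 (by
    simp only [List.mem_cons, List.not_mem_nil, or_false, forall_eq_or_imp, forall_eq]
    exact ⟨h1662, h237, h215, h1295, h2, h1448⟩)
  have h14 : φ c 14 = 14 := iso rfl p14 c14 (by
    simp only [List.mem_cons, List.not_mem_nil, or_false, forall_eq_or_imp, forall_eq]
    exact ⟨h1662, h237, h1535, h1030, h1598⟩)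
  have h98 : φ c 98 = 98 := iso rfl p98 c98 (by
    simp only [List.mem_cons, List.not_mem_nil, or_false, forall_eq_or_imp, forall_eq]
    exact ⟨h1598, h368, h1295, h1626, h1662, h0⟩)
  have h1575 : φ c 1575 = 1575 := iso rfl p1575 c1575 (by
    simp only [List.mem_cons, List.not_mem_nil, or_false, forall_eq_or_imp, forall_eq]
    exact ⟨h0, h1, h2, h368, h238⟩)
  apply eq_one_of_fix
  simp only [List.mem_cons, List.not_mem_nil, or_false, forall_eq_or_imp, forall_eq]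
  exact ⟨h14, h98, h1, h1575, h0⟩

/-! ### The number of images -/

theorem card_le_step (H : Subgroup Suz) (p : ℕ) (T : Finset ℕ) (h : ∀ g ∈ H, φ g p ∈ T) :
    Nat.card ↥H ≤ T.card * Nat.card ↥(H ⊓ stabL φ [p]) := by
  classical
  have hfin := finite_Suz
  let f : ↥H → T := fun g => ⟨φ g p, h g g.2⟩
  let r : T → ↥H := fun t => if ht : ∃ g, f g = t then ht.choose else 1
  have hr : ∀ g, f (r (f g)) = f g := by
    intro g
    have ht : ∃ g', f g' = f g := ⟨g, rfl⟩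
    show f (if ht : ∃ g', f g' = f g then ht.choose else 1) = f g
    rw [dif_pos ht]
    exact ht.choose_spec
  have hm : ∀ g : ↥H, ((r (f g))⁻¹ * g : Suz) ∈ H ⊓ stabL φ [p] := by
    intro g
    refine ⟨H.mul_mem (H.inv_mem (r (f g)).2) g.2, ?_⟩
    show ((r (f g))⁻¹ * g : Suz) ∈ stabL φ [p]
    rw [mem_stab_pt, φ_mul_apply]
    exact φ_inv_apply (congrArg Subtype.val (hr g))
  have hinj : Function.Injective
      (fun g : ↥H => ((f g, ⟨_, hm g⟩) : T × ↥(H ⊓ stabL φ [p]))) := by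
    intro g g' he
    simp only [Prod.mk.injEq, Subtype.mk.injEq] at he
    obtain ⟨h1, h2⟩ := he
    rw [h1] at h2
    exact Subtype.ext (mul_left_cancel h2)
  have := Nat.card_le_card_of_injective _ hinj
  rwa [Nat.card_prod, Nat.card_eq_fintype_card (α := T), Fintype.card_coe] at this

/-- the fixed points of `u` -/
def F12 : Finset ℕ := {0, 1, 2, 3, 5, 6, 1461, 1505, 1513, 1567, 1575, 1635}

theorem mem_F12 {p : ℕ} : p ∈ F12 ↔ p ∈ [0, 1, 2, 3, 5, 6, 1461, 1505, 1513, 1567, 1575, 1635] := by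
  simp [F12]

theorem fx_u {p : ℕ} (hp : p ∈ Fx u) : p ∈ F12 := mem_F12.2 (fx_a1 hp)

theorem u_fix {p : ℕ} (hp : p = 0 ∨ p = 1 ∨ p = 2 ∨ p = 3) : p ∈ Fx u := by
  rw [mem_Fx]
  rcases hp with rfl | rfl | rfl | rfl
  · exact ⟨by norm_num, rep_u.pt (by decide +kernel)⟩
  · exact ⟨by norm_num, rep_u.pt (by decide +kernel)⟩
  · exact ⟨by norm_num, rep_u.pt (by decide +kernel)⟩
  · exact ⟨by norm_num, rep_u.pt (by decide +kernel)⟩

theorem tbU : ∀ p ∈ [1461, 1505, 1513, 1567, 1575, 1635], tb U2 p = true := by decide +kernel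
theorem tbU1 : ∀ p ∈ [1, 2, 3], tb U2 p = false := by decide +kernel

theorem ptW : chkW (([k0, k1, k2, k3] : List (List Suz.Gen)).zip [0, 1, 2, 3]) = true := by decide +kernel
theorem cell4 : Nat.beq (cell 1598 [k0, k1, k2, k3])
    (msk [1461, 1505, 1513, 1567, 1575, 1598, 1626, 1635, 1662, 1779, 1781]) = true := by decide +kernel
theorem msk4 : tb (msk [1461, 1505, 1513, 1567, 1575, 1598, 1626, 1635, 1662, 1779, 1781]) 1598 = true := by
  decide +kernel

/-- an element of `C(u)` fixing 0 maps 1, 2, 3 to points among 1, 2, 3, 5, 6 -/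
theorem img {c : Suz} (hc : c * u = u * c) (h0 : φ c 0 = 0) {p : ℕ} (hp : p = 1 ∨ p = 2 ∨ p = 3) :
    φ c p ∈ ({1, 2, 3, 5, 6} : Finset ℕ) := by
  have h1 : φ c p ∈ F12 := fx_u (φ_fix_of_comm hc (u_fix (by tauto)))
  have h2 : φ c p ≠ 0 := by
    intro h
    have h3 : p = 0 := (φ c).injective (h.trans h0.symm)
    omega
  have h3 : U2.testBit (φ c p) = false := by
    rw [U2_inv h0, ← tb_eq]
    exact tbU1 p (by simpa using hp)
  have h4 : φ c p ∉ [1461, 1505, 1513, 1567, 1575, 1635] := by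
    intro h
    have h5 := tbU _ h
    rw [tb_eq, h3] at h5
    exact Bool.false_ne_true h5
  rw [mem_F12] at h1
  simp only [List.mem_cons, List.not_mem_nil, or_false, not_or] at h1 h4
  simp only [Finset.mem_insert, Finset.mem_singleton]
  omega

theorem finSuz : Finite Suz := finite_Suz

/-- **`|C(u)| ≤ 3600`** -/
theorem card_cent_u_le : Nat.card ↥(centralizer ({u} : Set Suz)) ≤ 3600 := by
  have hfin := finite_Suz
  have hC : ∀ {c : Suz}, c ∈ centralizer ({u} : Set Suz) → c * u = u * c := fun h => mem_centralizer_singleton_iff.1 h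
  set H0 := centralizer ({u} : Set Suz) with hH0
  have s1 := card_le_step H0 0 F12 fun c hc => fx_u (φ_fix_of_comm (hC hc) (u_fix (by tauto)))
  set H1 := H0 ⊓ stabL φ [0] with hH1
  have s2 := card_le_step H1 1 ({1, 2, 3, 5, 6} : Finset ℕ) fun c hc => img (hC hc.1) (mem_stab_pt.1 hc.2) (by tauto)
  set H2 := H1 ⊓ stabL φ [1] with hH2
  have s3 := card_le_step H2 2 ({2, 3, 5, 6} : Finset ℕ) fun c hc => by
    have h1 := img (hC hc.1.1) (mem_stab_pt.1 hc.1.2) (p := 2) (by tauto)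
    have h2 : φ c 2 ≠ 1 := fun h => absurd ((φ c).injective (h.trans (mem_stab_pt.1 hc.2).symm)) (by norm_num)
    simp only [Finset.mem_insert, Finset.mem_singleton] at h1 ⊢
    tauto
  set H3 := H2 ⊓ stabL φ [2] with hH3
  have s4 := card_le_step H3 3 ({3, 5, 6} : Finset ℕ) fun c hc => by
    have h1 := img (hC hc.1.1.1) (mem_stab_pt.1 hc.1.1.2) (p := 3) (by tauto)
    have h2 : φ c 3 ≠ 1 := fun h => absurd ((φ c).injective (h.trans (mem_stab_pt.1 hc.1.2).symm)) (by norm_num)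
    have h3 : φ c 3 ≠ 2 := fun h => absurd ((φ c).injective (h.trans (mem_stab_pt.1 hc.2).symm)) (by norm_num)
    simp only [Finset.mem_insert, Finset.mem_singleton] at h1 ⊢
    tauto
  set H4 := H3 ⊓ stabL φ [3] with hH4
  have s5 := card_le_step H4 1598 ({1598, 1626, 1662, 1779, 1781} : Finset ℕ) fun c hc => by
    have hcu := hC hc.1.1.1.1
    have h0 := mem_stab_pt.1 hc.1.1.1.2
    have h1 := mem_stab_pt.1 hc.1.1.2
    have h2 := mem_stab_pt.1 hc.1.2
    have h3 := mem_stab_pt.1 hc.2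
    have h4 := cell_inv (b := 1598) (fix_ws rfl ptW (by
      simp only [List.mem_cons, List.not_mem_nil, or_false, forall_eq_or_imp, forall_eq]
      exact ⟨h0, h1, h2, h3⟩)) 1598
    rw [Nat.eq_of_beq_eq_true cell4, ← tb_eq _ 1598, msk4] at h4
    have h5 := mem_of_msk h4
    have h6 : φ c 1598 ∉ Fx u := by
      intro h
      have h7 := φ_fix_of_comm (q := c⁻¹) (g := u) (by
        rw [inv_mul_eq_iff_eq_mul, ← mul_assoc, hcu, mul_inv_cancel_right]) h
      rw [φ_inv_apply rfl] at h7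
      have h8 := fx_u h7
      rw [mem_F12] at h8
      simp at h8
    have h7 : ∀ p ∈ [1461, 1505, 1513, 1567, 1575, 1635], p ∈ Fx u := by
      have hk : ∀ p ∈ [1461, 1505, 1513, 1567, 1575, 1635], mv wu p p = true ∧ p < 1782 := by decide +kernel
      intro p hp
      exact mem_Fx.2 ⟨(hk p hp).2, rep_u.pt (hk p hp).1⟩
    have h8 : φ c 1598 ∉ [1461, 1505, 1513, 1567, 1575, 1635] := fun h => h6 (h7 _ h)
    simp only [List.mem_cons, List.not_mem_nil, or_false, not_or] at h5 h8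
    simp only [Finset.mem_insert, Finset.mem_singleton]
    omega
  set H5 := H4 ⊓ stabL φ [1598] with hH5
  have h5 : H5 = ⊥ := by
    rw [eq_bot_iff]
    intro c hc
    exact Subgroup.mem_bot.2 (eq_one_u (hC hc.1.1.1.1.1) (mem_stab_pt.1 hc.1.1.1.1.2) (mem_stab_pt.1 hc.1.1.1.2)
      (mem_stab_pt.1 hc.1.1.2) (mem_stab_pt.1 hc.1.2) (mem_stab_pt.1 hc.2))
  have h6 : Nat.card ↥H5 = 1 := by rw [h5, Subgroup.card_bot]
  have t1 : F12.card = 12 := by decide
  have t2 : ({1, 2, 3, 5, 6} : Finset ℕ).card = 5 := by decide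
  have t3 : ({2, 3, 5, 6} : Finset ℕ).card = 4 := by decide
  have t4 : ({3, 5, 6} : Finset ℕ).card = 3 := by decide
  have t5 : ({1598, 1626, 1662, 1779, 1781} : Finset ℕ).card = 5 := by decide
  rw [t1] at s1
  rw [t2] at s2
  rw [t3] at s3
  rw [t4] at s4
  rw [t5, h6] at s5
  omega
/-! ### Fusion in `Y0` -/

def wn : List Suz.Gen := [.d, .c, .b, .a, .b, .c, .d, .e, .c, .d, .c, .a, .b, .a, .c, .b, .d, .c, .b, .a, .b, .a, .d, .c, .b, .c, .d, .e, .d, .c, .d]
def wr : List Suz.Gen := [.f, .b, .c, .d, .c, .b, .f, .g, .b, .c, .d, .c, .b, .g, .f, .b, .c, .d, .c, .b, .f, .c, .a, .c, .b, .d, .c, .b, .a, .b, .a, .d, .c, .b, .d, .c, .d, .e, .d]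

theorem n_f1 : el wn * f1 = f2 * el wn :=
  eq_of_reps ((Rep.el _).mul (Rep.el _)) ((Rep.el _).mul (Rep.el _)) (by decide +kernel)

theorem n_f2 : el wn * f2 = (f1 * f2) ^ 4 * el wn :=
  eq_of_reps ((Rep.el _).mul (Rep.el _)) ((Rep.pow ((Rep.el _).mul (Rep.el _)) 4).mul (Rep.el _)) (by decide +kernel)

theorem r_f1 : el wr * f1 = f1 ^ 2 * el wr :=
  eq_of_reps ((Rep.el _).mul (Rep.el _)) ((Rep.pow (Rep.el _) 2).mul (Rep.el _)) (by decide +kernel)

theorem r_f2 : el wr * f2 = f2 ^ 2 * el wr :=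
  eq_of_reps ((Rep.el _).mul (Rep.el _)) ((Rep.pow (Rep.el _) 2).mul (Rep.el _)) (by decide +kernel)

/-- the elements of `Y0` -/
noncomputable def v (a : ℕ × ℕ) : Suz := f1 ^ a.1 * f2 ^ a.2

theorem v_mem (a : ℕ × ℕ) : v a ∈ Y0 := Y0.mul_mem (Y0.pow_mem f1_mem _) (Y0.pow_mem f2_mem _)

theorem pow_mod {g : Suz} (hg : g ^ 5 = 1) (n : ℕ) : g ^ (n % 5) = g ^ n := by
  conv_rhs => rw [← Nat.mod_add_div n 5, pow_add, pow_mul, hg, one_pow, mul_one]

theorem v_mod (i j : ℕ) : v (i % 5, j % 5) = v (i, j) := by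
  show f1 ^ (i % 5) * f2 ^ (j % 5) = f1 ^ i * f2 ^ j
  rw [pow_mod f1_pow, pow_mod f2_pow]

theorem conj_eq {g a b : Suz} (h : g * a = b * g) : g * a * g⁻¹ = b := by rw [h, mul_inv_cancel_right]

theorem conj_r (a : ℕ × ℕ) : IsConj (v a) (v (2 * a.1 % 5, 2 * a.2 % 5)) := by
  rw [v_mod]
  refine isConj_iff.2 ⟨el wr, ?_⟩
  show el wr * (f1 ^ a.1 * f2 ^ a.2) * (el wr)⁻¹ = f1 ^ (2 * a.1) * f2 ^ (2 * a.2)
  have h : ∀ x y : Suz, el wr * (x * y) * (el wr)⁻¹ = (el wr * x * (el wr)⁻¹) * (el wr * y * (el wr)⁻¹) := by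
    intro x y; group
  rw [h, ← conj_pow, ← conj_pow, conj_eq r_f1, conj_eq r_f2, ← pow_mul, ← pow_mul]

theorem conj_n (a : ℕ × ℕ) : IsConj (v a) (v (4 * a.2 % 5, (a.1 + 4 * a.2) % 5)) := by
  rw [v_mod]
  refine isConj_iff.2 ⟨el wn, ?_⟩
  show el wn * (f1 ^ a.1 * f2 ^ a.2) * (el wn)⁻¹ = f1 ^ (4 * a.2) * f2 ^ (a.1 + 4 * a.2)
  have h : ∀ x y : Suz, el wn * (x * y) * (el wn)⁻¹ = (el wn * x * (el wn)⁻¹) * (el wn * y * (el wn)⁻¹) := by
    intro x y; group
  have hc : Commute f1 f2 := f_comm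
  rw [h, ← conj_pow, ← conj_pow, conj_eq n_f1, conj_eq n_f2, ← pow_mul, hc.mul_pow, ← mul_assoc,
    ← ((hc.pow_pow (4 * a.2) a.1).eq), mul_assoc, ← pow_add]

/-- steps of the two conjugations -/
def sn : ℕ → ℕ × ℕ → ℕ × ℕ
  | 0, a => a
  | l + 1, a => (4 * (sn l a).2 % 5, ((sn l a).1 + 4 * (sn l a).2) % 5)

/-- steps of the two conjugations -/
def sr : ℕ → ℕ × ℕ → ℕ × ℕ
  | 0, a => a
  | l + 1, a => (2 * (sr l a).1 % 5, 2 * (sr l a).2 % 5)

/-- steps of the two conjugations -/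
def st (a : ℕ × ℕ) (k l : ℕ) : ℕ × ℕ := sr k (sn l a)

theorem conj_sn (a : ℕ × ℕ) (l : ℕ) : IsConj (v a) (v (sn l a)) := by
  induction l with
  | zero => exact IsConj.refl _
  | succ l ih => exact ih.trans (conj_n _)

theorem conj_sr (a : ℕ × ℕ) (l : ℕ) : IsConj (v a) (v (sr l a)) := by
  induction l with
  | zero => exact IsConj.refl _
  | succ l ih => exact ih.trans (conj_r _)

theorem conj_st (a : ℕ × ℕ) (k l : ℕ) : IsConj (v a) (v (st a k l)) := (conj_sn a l).trans (conj_sr _ k)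

theorem st_all : ∀ i j : Fin 5, ((i : ℕ), (j : ℕ)) ≠ (0, 0) →
    (∃ k : Fin 4, ∃ l : Fin 3, st (1, 0) k l = ((i : ℕ), (j : ℕ)) ∧ ¬ ((i : ℕ) ≠ 0 ∧ (j : ℕ) ≠ 0 ∧ (i : ℕ) ≠ j)) ∨
      (∃ k : Fin 4, ∃ l : Fin 3, st (1, 2) k l = ((i : ℕ), (j : ℕ)) ∧ ((i : ℕ) ≠ 0 ∧ (j : ℕ) ≠ 0 ∧ (i : ℕ) ≠ j)) := by
  decide +kernel

theorem u_eq : v (1, 2) = u := rfl
theorem f1_eq : v (1, 0) = f1 := by
  show f1 ^ 1 * f2 ^ 0 = f1
  rw [pow_one, pow_zero, mul_one]

theorem dich_ij {i j : ℕ} (hi : i < 5) (hj : j < 5) (h : (i, j) ≠ (0, 0)) :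
    (IsConj f1 (v (i, j)) ∧ ¬ (i ≠ 0 ∧ j ≠ 0 ∧ i ≠ j)) ∨ (IsConj u (v (i, j)) ∧ (i ≠ 0 ∧ j ≠ 0 ∧ i ≠ j)) := by
  rcases st_all ⟨i, hi⟩ ⟨j, hj⟩ h with ⟨k, l, h1, h2⟩ | ⟨k, l, h1, h2⟩
  · left
    refine ⟨?_, h2⟩
    have h3 := conj_st (1, 0) k l
    rwa [h1, f1_eq] at h3
  · right
    refine ⟨?_, h2⟩
    have h3 := conj_st (1, 2) k l
    rwa [h1, u_eq] at h3

/-- **the fusion in `Y0`** -/
theorem dich {g : Suz} (hg : g ∈ Y0) (h1 : g ≠ 1) : IsConj f1 g ∨ IsConj u g := by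
  obtain ⟨i, hi, j, hj, rfl⟩ := mem_Y0 hg
  rcases dich_ij hi hj (by
    rintro h
    simp only [Prod.mk.injEq] at h
    obtain ⟨rfl, rfl⟩ := h
    exact h1 (by simp)) with h | h
  · exact Or.inl h.1
  · exact Or.inr h.1

theorem card_Fx_f1 : (Fx f1).card = 2 := card_Fx_rep (Rep.el w1) (by decide +kernel)
theorem card_Fx_u : (Fx u).card = 12 := card_Fx_rep rep_u (by decide +kernel)

theorem Fx_one : (Fx (1 : Suz)).card = 1782 := card_Fx_rep Rep.one (by decide +kernel)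

theorem u_ne : u ≠ 1 := by
  intro h
  have h1 := card_Fx_u
  rw [h, Fx_one] at h1
  omega

theorem Fx_of_conj {x y : Suz} (h : IsConj x y) : (Fx x).card = (Fx y).card := by
  obtain ⟨c, rfl⟩ := isConj_iff.1 h
  rw [card_Fx_conj]

theorem not_conj : ¬ IsConj u f1 := fun h => by
  have h1 := Fx_of_conj h
  rw [card_Fx_f1, card_Fx_u] at h1
  omega

theorem conj_u_iff {i j : ℕ} (hi : i < 5) (hj : j < 5) : IsConj u (v (i, j)) ↔ (i ≠ 0 ∧ j ≠ 0 ∧ i ≠ j) := by
  by_cases h : (i, j) = (0, 0)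
  · simp only [Prod.mk.injEq] at h
    obtain ⟨rfl, rfl⟩ := h
    constructor
    · intro h1
      exfalso
      have h2 : v (0, 0) = 1 := by
        show f1 ^ 0 * f2 ^ 0 = 1
        rw [pow_zero, pow_zero, one_mul]
      rw [h2, isConj_one_left] at h1
      have h3 := card_Fx_u
      rw [h1] at h3
      have h4 := card_Fx_rep Rep.one (m := 1782) (by decide +kernel)
      omega
    · rintro ⟨h1, -⟩
      exact absurd rfl h1
  · rcases dich_ij hi hj h with h1 | h1
    · constructor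
      · intro h2
        exact absurd (h2.trans h1.1.symm) not_conj
      · intro h2
        exact absurd h2 h1.2
    · exact ⟨fun _ => h1.2, fun _ => h1.1⟩

/-! ### The number of conjugates of `u` -/

/-- an element of 5-power order commuting with `Y0` lies in `Y0` -/
theorem mem_of_comm {g : Suz} (hg : g ^ 5 = 1) (h : ∀ y ∈ Y0, y * g = g * y) : g ∈ Y0 := by
  have hfin := finite_Suz
  have : Fact (Nat.Prime 5) := ⟨by norm_num⟩
  have hz : IsPGroup 5 ↥(zpowers g) := isPGroup_of_pow fun a ha => by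
    obtain ⟨k, rfl⟩ := mem_zpowers_iff.1 ha
    rw [← zpow_natCast, ← zpow_mul, mul_comm, zpow_mul, zpow_natCast, hg, one_zpow]
  have hn : zpowers g ≤ normalizer (Y0 : Set Suz) := by
    rw [zpowers_le, mem_normalizer_iff]
    intro y
    constructor
    · intro hy
      rw [← h y hy, mul_inv_cancel_right]
      exact hy
    · intro hy
      have h1 := h _ hy
      have h2 : y = g * y * g⁻¹ := by
        have h3 : g * y * g⁻¹ * g = g * y := by group
        rw [h3] at h1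
        exact (mul_left_cancel h1)
      rw [h2]
      exact hy
  have hs := IsPGroup.to_sup_of_normal_right' hz Y0_isPGroup hn
  obtain ⟨k, hk⟩ := IsPGroup.iff_card.1 hs
  have h2 : k ≤ 2 := by
    by_contra hlt
    have h3 := (pow_dvd_pow 5 (show 3 ≤ k by omega)).trans (hk ▸ card_subgroup_dvd_card (zpowers g ⊔ Y0))
    rw [card_Suz] at h3
    norm_num at h3
  have h3 : Y0 = zpowers g ⊔ Y0 := Subgroup.eq_of_le_of_card_ge le_sup_right (by
    rw [hk, card_Y0]
    exact Nat.pow_le_pow_right (by norm_num) h2)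
  rw [h3]
  exact (le_sup_left : zpowers g ≤ _) (mem_zpowers g)

/-- the conjugates of `u` -/
abbrev K : Type := {g : Suz // IsConj u g}

noncomputable instance actK : MulAction ↥Y0 K where
  smul q k := ⟨q * k.1 * (q : Suz)⁻¹, k.2.trans (isConj_iff.2 ⟨q, rfl⟩)⟩
  one_smul k := Subtype.ext (by
    show (1 : Suz) * k.1 * (1 : Suz)⁻¹ = k.1
    group)
  mul_smul q r k := Subtype.ext (by
    show ((q : Suz) * r) * k.1 * ((q : Suz) * r)⁻¹ = q * (r * k.1 * (r : Suz)⁻¹) * (q : Suz)⁻¹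
    group)

theorem u_pow : u ^ 5 = 1 := Y0_pow u (Y0.mul_mem (Y0.pow_mem f1_mem _) (Y0.pow_mem f2_mem _))

theorem v_bij : Function.Bijective fun p : Fin 5 × Fin 5 => (⟨v (p.1, p.2), v_mem _⟩ : ↥Y0) := by
  have hfin := finite_Suz
  have := Fintype.ofFinite ↥Y0
  rw [Fintype.bijective_iff_surjective_and_card]
  constructor
  · rintro ⟨y, hy⟩
    obtain ⟨i, hi, j, hj, rfl⟩ := mem_Y0 hy
    exact ⟨(⟨i, hi⟩, ⟨j, hj⟩), rfl⟩
  · rw [← Nat.card_eq_fintype_card (α := ↥Y0), card_Y0, Fintype.card_prod, Fintype.card_fin]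
    norm_num

theorem card_fixed : Nat.card (MulAction.fixedPoints ↥Y0 K) = 12 := by
  classical
  have h1 : Nat.card {p : Fin 5 × Fin 5 // (p.1 : ℕ) ≠ 0 ∧ (p.2 : ℕ) ≠ 0 ∧ (p.1 : ℕ) ≠ p.2} = 12 := by
    rw [Nat.card_eq_fintype_card]
    decide
  rw [← h1]
  refine (Nat.card_congr (Equiv.ofBijective (fun p : {p : Fin 5 × Fin 5 // (p.1 : ℕ) ≠ 0 ∧ (p.2 : ℕ) ≠ 0 ∧
    (p.1 : ℕ) ≠ p.2} => (⟨⟨v (p.1.1, p.1.2), (conj_u_iff p.1.1.2 p.1.2.2).2 p.2⟩, ?_⟩ : MulAction.fixedPoints ↥Y0 K))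
      ⟨?_, ?_⟩)).symm
  · intro q
    apply Subtype.ext
    show (q : Suz) * v (p.1.1, p.1.2) * (q : Suz)⁻¹ = v (p.1.1, p.1.2)
    rw [Y0_comm q q.2 _ (v_mem _), mul_inv_cancel_right]
  · intro p p' h
    apply Subtype.ext
    apply v_bij.1
    apply Subtype.ext
    have h2 := congrArg (fun z : MulAction.fixedPoints ↥Y0 K => (z.1 : Suz)) h
    exact h2
  · rintro ⟨⟨g, hg⟩, hfix⟩
    have hg5 : g ^ 5 = 1 := by
      obtain ⟨c, rfl⟩ := isConj_iff.1 hg
      rw [conj_pow, u_pow, mul_one, mul_inv_cancel]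
    have hgY : g ∈ Y0 := mem_of_comm hg5 fun y hy => by
      have h2 := congrArg (fun z : K => (z : Suz)) (hfix ⟨y, hy⟩)
      change y * g * y⁻¹ = g at h2
      rwa [mul_inv_eq_iff_eq_mul] at h2
    obtain ⟨i, hi, j, hj, rfl⟩ := mem_Y0 hgY
    exact ⟨⟨(⟨i, hi⟩, ⟨j, hj⟩), (conj_u_iff hi hj).1 hg⟩, rfl⟩

theorem card_K : Nat.card K ≡ 2 [MOD 5] := by
  have hfin := finite_Suz
  have : Fact (Nat.Prime 5) := ⟨by norm_num⟩
  have h1 := Y0_isPGroup.card_modEq_card_fixedPoints K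
  rw [card_fixed] at h1
  exact h1

/-- **`|C(u)| ≤ 3200`** (it is 1800) -/
theorem card_cent_u : Nat.card ↥(centralizer ({u} : Set Suz)) ≤ 3200 := by
  have hfin := finite_Suz
  have := Fintype.ofFinite Suz
  have h1 := Cfsg.Agent.Classification.BSWStruct.card_isConj_mul Suz u
  have h2 := card_cent_u_le
  have h3 : 5 ^ 2 ∣ Nat.card ↥(centralizer ({u} : Set Suz)) := by
    rw [← card_Y0]
    refine card_dvd_of_le fun y hy => mem_centralizer_singleton_iff.2 (Y0_comm y hy u ?_)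
    exact Y0.mul_mem (Y0.pow_mem f1_mem _) (Y0.pow_mem f2_mem _)
  have h4 : ¬ 11 ∣ Nat.card ↥(centralizer ({u} : Set Suz)) := by
    intro h
    obtain ⟨⟨y, hy⟩, hy1⟩ := exists_prime_orderOf_dvd_card' (hp := ⟨by norm_num⟩) 11 h
    rw [Subgroup.orderOf_mk] at hy1
    refine Cfsg.Agent.H265.SuzCent.not_5_11 (v := u) ?_ hy1 (mem_centralizer_singleton_iff.1 hy)
    have : Fact (Nat.Prime 5) := ⟨by norm_num⟩
    exact orderOf_eq_prime_iff.2 ⟨u_pow, u_ne⟩
  have hK := card_K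
  rw [card_Suz] at h1
  obtain ⟨h, hh⟩ := h3
  rw [hh] at h1 h2 h4 ⊢
  have h5 : Nat.card K * h = 17933819904 := by
    have h' : Nat.card K * (5 ^ 2 * h) = 448345497600 := h1
    have h'' : 25 * (Nat.card K * h) = 448345497600 := by rw [← h']; ring
    omega
  have h6 : h ≤ 144 := by
    have : 5 ^ 2 * h ≤ 3600 := h2
    omega
  have h7 : ¬ 11 ∣ h := fun h' => h4 (h'.trans (dvd_mul_left _ _))
  have h8 : (Nat.card K % 5) * (h % 5) % 5 = 4 := by
    rw [← Nat.mul_mod, h5]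
  have h9 : Nat.card K % 5 = 2 := hK
  rw [h9] at h8
  have h10 : h ∣ 17933819904 := ⟨_, by rw [← h5, mul_comm]⟩
  by_contra hcon
  have h11 : 128 < h := by
    have : ¬ 5 ^ 2 * h ≤ 3200 := hcon
    omega
  clear h1 h2 h4 hh h5 hcon
  interval_cases h <;> omega

end Cfsg.Agent.H101.Cod.SuzTab
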